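import Mathlib
import Cfsg.Agent.Lib.Blk.Sub
import Cfsg.Agent.Lib.Block.Vanish
import Cfsg.Agent.Lib.Char.Monomial
import Cfsg.Agent.Lib.Coprime.Abelian
import Cfsg.Agent.Lib.RealCl.Fld

/-! Knörr's criterion for the coprime `k(GV)` problem. -/

set_option autoImplicit false

namespace CfsgLib.KGV

open Cfsg CfsgLib.Char CfsgLib.Block CfsgLib.Blk Subgroup
open scoped ComplexConjugate

section CS
variable {H : Type*} [Group H] {n : ℕ}

/-- Combinations of characters with coefficients in `ℤ[ζ_n]`. -/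
def CS (n : ℕ) (H : Type*) [Group H] : Submodule (cycInt n) (H → ℂ) :=
  Submodule.span _ {θ | IsGeneralizedCharacter H θ}

theorem mem_CS {θ : H → ℂ} (h : IsGeneralizedCharacter H θ) : θ ∈ CS n H :=
  Submodule.subset_span h

theorem smul_mem_CS {c : ℂ} (hc : c ∈ cycInt n) {θ : H → ℂ} (h : θ ∈ CS n H) : c • θ ∈ CS n H :=
  (CS n H).smul_mem ⟨c, hc⟩ h

theorem mul_mem_CS {f g : H → ℂ} (hf : f ∈ CS n H) (hg : g ∈ CS n H) : f * g ∈ CS n H := by
  induction hf, hg using Submodule.span_induction₂ with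
  | mem_mem x y hx hy => exact mem_CS (isGenChar_mul hx hy)
  | zero_left => simp
  | zero_right => simp
  | add_left x y z _ _ _ h1 h2 => rw [add_mul]; exact add_mem h1 h2
  | add_right x y z _ _ _ h1 h2 => rw [mul_add]; exact add_mem h1 h2
  | smul_left r x y _ _ h => rw [smul_mul_assoc]; exact (CS n H).smul_mem r h
  | smul_right r x y _ _ h => rw [mul_smul_comm]; exact (CS n H).smul_mem r h

theorem isClassFunction_of_CS {f : H → ℂ} (hf : f ∈ CS n H) : IsClassFunction H f := by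
  induction hf using Submodule.span_induction with
  | mem x hx => exact isClassFunction_of_isGenChar hx
  | zero => exact fun _ _ => rfl
  | add x y _ _ hx hy => exact fun a b => by rw [Pi.add_apply, hx, hy]; rfl
  | smul r x _ hx => exact fun a b => by rw [Pi.smul_apply, hx]; rfl

theorem isIntegral_of_CS [Finite H] (hn : n ≠ 0) {f : H → ℂ} (hf : f ∈ CS n H) (h : H) :
    IsIntegral ℤ (f h) ∧ IsIntegral ℤ (conj (f h)) := by
  induction hf using Submodule.span_induction with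
  | mem x hx => exact ⟨isIntegral_genChar hx h, isIntegral_genChar (isGenChar_conj hx) h⟩
  | zero => simpa using isIntegral_zero
  | add x y _ _ hx hy => rw [Pi.add_apply, map_add]; exact ⟨hx.1.add hy.1, hx.2.add hy.2⟩
  | smul r x _ hx =>
    change IsIntegral ℤ ((r : ℂ) * x h) ∧ IsIntegral ℤ (conj ((r : ℂ) * x h))
    rw [map_mul]
    exact ⟨(isIntegral_of_mem_cycInt hn r.2).mul hx.1,
      (isIntegral_of_mem_cycInt hn (conj_mem_cycInt hn r.2)).mul hx.2⟩

theorem classInner_mem_of_CS [Fintype H] (hn : n ≠ 0) {f g : H → ℂ} (hf : f ∈ CS n H)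
    (hg : g ∈ CS n H) : classInner f g ∈ cycInt n := by
  induction hf, hg using Submodule.span_induction₂ with
  | mem_mem x y hx hy =>
    obtain ⟨k, hk⟩ := exists_classInner_eq_int hx hy
    rw [hk]; exact intCast_mem _ k
  | zero_left => rw [classInner_zero_left]; exact zero_mem _
  | zero_right => rw [classInner_zero_right]; exact zero_mem _
  | add_left x y z _ _ _ h1 h2 => rw [classInner_add_left]; exact add_mem h1 h2
  | add_right x y z _ _ _ h1 h2 => rw [classInner_add_right]; exact add_mem h1 h2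
  | smul_left r x y _ _ h =>
    exact (classInner_smul_left (r : ℂ) x y).symm ▸ mul_mem r.2 h
  | smul_right r x y _ _ h =>
    exact (classInner_smul_right (r : ℂ) x y).symm ▸ mul_mem (conj_mem_cycInt hn r.2) h

theorem shift_mem_CS {X : Type*} [Group X] [Finite X] {v : X} (hv : v ^ n = 1) (K : Subgroup X)
    (hK : K ≤ Cu v) {χ : X → ℂ} (hχ : IsCharacter X χ) : (fun h : K => χ (v * h)) ∈ CS n K := by
  haveI := Fintype.ofFinite (Cu v)
  obtain ⟨m, -, hm⟩ := exists_char_eq_sum_nat (isCharacter_restrict (Cu v) hχ)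
  have : (fun h : K => χ (v * h)) = ∑ η : IrrCharacter (Cu v),
      ((m η : ℂ) * om v (η : Cu v → ℂ)) • fun h : K => (η : Cu v → ℂ) (inclusion hK h) :=
    funext fun h => by
      have := congrFun hm (uC v * inclusion hK h)
      simp only [Finset.sum_apply, Pi.smul_apply, smul_eq_mul, irr_uC_mul] at this ⊢
      exact this.trans (Finset.sum_congr rfl fun _ _ => by ring)
  rw [this]
  exact Submodule.sum_mem _ fun η _ => smul_mem_CS (mul_mem (natCast_mem _ _)
    (cycInt_mono (orderOf_dvd_of_pow_eq_one hv) (om_mem_cycInt v η)))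
    (mem_CS (isGenChar_comp (inclusion hK) (isGenChar_of_isIrr η.2)))

end CS

variable {X : Type*} [Group X] [Finite X] {p : ℕ} [hp : Fact p.Prime] {M : Ideal AlgInt}

/-- The coprime linear setting, with a vector `v`. -/
structure Setup (p : ℕ) (V G : Subgroup X) (v : X) : Prop where
  normal : V.Normal
  exp : ∀ w ∈ V, w ^ p = 1
  idx : ¬ p ∣ V.index
  self : centralizer (V : Set X) = V
  compl : IsComplement' V G
  mem : v ∈ V

namespace Setup
variable {V G : Subgroup X} {v : X} (S : Setup p V G v)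
include S

omit [Finite X] hp in
theorem comm {a b : X} (ha : a ∈ V) (hb : b ∈ V) : a * b = b * a :=
  mem_centralizer_iff.1 (S.self.ge hb) a ha

omit hp in
theorem reg {g : X} (hg : g ∈ G) : ¬ p ∣ orderOf g := fun h =>
  S.idx (h.trans (S.compl.symm.index_eq_card ▸ G.orderOf_dvd_natCard hg))

omit [Finite X] in
theorem pElt {w : X} (hw : w ∈ V) : ∃ k : ℕ, orderOf w = p ^ k :=
  ((Nat.dvd_prime_pow hp.out (m := 1)).1
    ((orderOf_dvd_of_pow_eq_one (S.exp w hw)).trans (pow_one p).symm.dvd)).imp fun _ h => h.2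

theorem key {h h' x : X} (hh : h ∈ G ⊓ Cu v) (hh' : h' ∈ G ⊓ Cu v)
    (hx : x * (v * h) * x⁻¹ = v * h') :
    ∃ w ∈ V, ∃ g ∈ G ⊓ Cu v, x = w * g ∧ g * h * g⁻¹ = h' ∧ h' * w = w * h' := by
  haveI := S.normal
  have h1 := isPPart_conj (isPPart_mul (mem_Cu.1 hh.2) (S.pElt S.mem) (S.reg hh.1)) x
  rw [hx] at h1
  have h2 := isPPart_unique hp.out h1 (isPPart_mul (mem_Cu.1 hh'.2) (S.pElt S.mem) (S.reg hh'.1))
  have h3 : x * h * x⁻¹ = h' := mul_left_cancel (a := x * v * x⁻¹) (by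
    rw [conj_mul, hx, h2])
  obtain ⟨w, hw, g, hg, rfl⟩ : ∃ w ∈ V, ∃ g ∈ G, x = w * g := by
    obtain ⟨⟨w, g⟩, h⟩ := S.compl.2 x
    exact ⟨w, w.2, g, g.2, h.symm⟩
  have h4 : g * v * g⁻¹ = v := by
    have := S.comm hw (S.normal.conj_mem v S.mem g)
    calc g * v * g⁻¹ = w * (g * v * g⁻¹) * w⁻¹ := by rw [this, mul_inv_cancel_right]
      _ = w * g * v * (w * g)⁻¹ := by group
      _ = v := h2
  have h5 : g * h * g⁻¹ = h' := by
    have h6 : g * h * g⁻¹ * h'⁻¹ ∈ V ⊓ G := by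
      refine ⟨?_, G.mul_mem (G.mul_mem (G.mul_mem hg hh.1) (G.inv_mem hg)) (G.inv_mem hh'.1)⟩
      have : g * h * g⁻¹ * h'⁻¹ = w⁻¹ * (h' * w * h'⁻¹) := by rw [← h3]; group
      exact this ▸ V.mul_mem (V.inv_mem hw) (S.normal.conj_mem _ hw _)
    rwa [S.compl.disjoint.eq_bot, mem_bot, mul_inv_eq_one] at h6
  refine ⟨w, hw, g, ⟨hg, mem_Cu.2 (mul_inv_eq_iff_eq_mul.1 h4).symm⟩, rfl, h5, ?_⟩
  calc h' * w = w * g * h * (w * g)⁻¹ * w := by rw [h3]
    _ = w * (g * h * g⁻¹) := by group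
    _ = _ := by rw [h5]

theorem card_centralizer (h : ↥(G ⊓ Cu v)) : Nat.card (centralizer ({v * h} : Set X)) =
    Nat.card ↥(V ⊓ Cu (h : X)) * Nat.card (centralizer ({h} : Set ↥(G ⊓ Cu v))) := by
  rw [← Nat.card_prod]
  have h1 : ∀ x : ↥(V ⊓ Cu (h : X)), (x : X) ∈ Cu (v * h) := fun x => mem_Cu.2 <| by
    rw [mul_assoc, mem_Cu.1 x.2.2, ← mul_assoc, S.comm S.mem x.2.1, mul_assoc]
  have h2 : ∀ x : Cu h, (x.1 : X) ∈ Cu (v * h) := fun x => mem_Cu.2 <| by
    have : (h : X) * x.1 = x.1 * h := congrArg Subtype.val (mem_Cu.1 x.2)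
    rw [mul_assoc, this, ← mul_assoc, mem_Cu.1 x.1.2.2, mul_assoc]
  refine (Nat.card_eq_of_bijective (fun x : ↥(V ⊓ Cu (h : X)) × Cu h =>
    (⟨x.1 * x.2.1, mul_mem (h1 x.1) (h2 x.2)⟩ : Cu (v * h))) ⟨fun x y hxy => ?_, fun x => ?_⟩).symm
  · have := S.compl.1 (a₁ := (⟨_, x.1.2.1⟩, ⟨_, x.2.1.2.1⟩)) (a₂ := (⟨_, y.1.2.1⟩, ⟨_, y.2.1.2.1⟩))
      (congrArg Subtype.val hxy)
    simp only [Prod.mk.injEq, Subtype.mk.injEq] at this
    exact Prod.ext (Subtype.ext this.1) (Subtype.ext (Subtype.ext this.2))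
  · obtain ⟨w, hw, g, hg, h1, h2, h3⟩ := S.key h.2 h.2 (x := x)
      (by rw [← mem_Cu.1 x.2, mul_inv_cancel_right])
    exact ⟨(⟨w, hw, mem_Cu.2 h3⟩, ⟨⟨g, hg⟩, mem_Cu.2 (Subtype.ext
      (mul_inv_eq_iff_eq_mul.1 h2).symm)⟩), Subtype.ext h1.symm⟩

theorem classInd_eq (h h' : ↥(G ⊓ Cu v)) : classInd (v * h') (v * h) = classInd h' h := by
  by_cases hc : IsConj h h'
  · rw [classInd_of_isConj hc, classInd_of_isConj]
    obtain ⟨g, rfl⟩ := isConj_iff.1 hc
    exact isConj_iff.2 ⟨g, by rw [← mul_assoc, ← mem_Cu.1 g.2.2]; simp [mul_assoc]⟩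
  · rw [classInd_of_not_isConj hc, classInd_of_not_isConj fun h1 => hc ?_]
    obtain ⟨x, hx⟩ := isConj_iff.1 h1
    obtain ⟨w, -, g, hg, -, h2, -⟩ := S.key h.2 h'.2 hx
    exact isConj_iff.2 ⟨⟨g, hg⟩, Subtype.ext h2⟩

/-- Knörr's criterion. -/
theorem knorr (hM : IsPModular p M) {ψ : ↥(G ⊓ Cu v) → ℂ} (hψ : ψ ∈ CS p _)
    (h1 : ψ 1 * conj (ψ 1) = 1) (hli : ∀ h, h ≠ 1 → MemLocalIdeal M (conj (ψ h)))
    {c : ↥(G ⊓ Cu v) → ℕ} (hc : ∀ h, ψ h * conj (ψ h) * Nat.card ↥(V ⊓ Cu (h : X)) = c h)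
    (hc' : ∀ h, c h ≤ Nat.card V) : Nat.card (ConjClasses X) ≤ Nat.card V := by
  classical
  haveI := S.normal
  haveI := Fintype.ofFinite ↥(G ⊓ Cu v)
  have hH : (Nat.card ↥(G ⊓ Cu v) : ℂ) ≠ 0 := natCard_ne_zero
  have hI := isIntegral_of_CS hp.out.ne_zero hψ
  have := sum_weight_le_of_cycInt hp.out.ne_zero (Finset.univ : Finset (IrrCharacter X))
    (fun χ => classInner (fun h : ↥(G ⊓ Cu v) => (χ : X → ℂ) (v * h)) ψ) (fun _ => 1)
    (fun _ _ => zero_le_one) (fun χ _ => classInner_mem_of_CS hp.out.ne_zero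
      (shift_mem_CS (S.exp v S.mem) _ inf_le_right (irr_isCharacter χ)) hψ) (fun χ _ h0 => ?_)
    ((∑ h, c h : ℕ) / Nat.card ↥(G ⊓ Cu v)) ?_
  · rw [Finset.sum_const, Finset.card_univ, ← Nat.card_eq_fintype_card,
      card_irr_eq_card_conjClasses, nsmul_one, le_div_iff₀ (by exact_mod_cast Nat.card_pos)] at this
    have h2 := Finset.sum_le_card_nsmul _ _ _ fun h (_ : h ∈ Finset.univ) => hc' h
    rw [Finset.card_univ, ← Nat.card_eq_fintype_card, smul_eq_mul, mul_comm] at h2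
    exact Nat.le_of_mul_le_mul_right (le_trans (by exact_mod_cast this) h2) Nat.card_pos
  · rw [classInner_def, mul_eq_zero, ← Finset.add_sum_erase _ _ (Finset.mem_univ 1),
      add_eq_zero_iff_eq_neg] at h0
    have h2 : MemLocalIdeal M ((χ : X → ℂ) (v * (1 : ↥(G ⊓ Cu v))) * conj (ψ 1)) :=
      (h0.resolve_left (inv_ne_zero hH)) ▸ li_neg (li_sum hM fun h hh => li_mul_left hM
        (lr_of_isIntegral hM (isIntegral_genChar (isGenChar_of_isIrr χ.2) _))
        (hli h (Finset.ne_of_mem_erase hh)))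
    refine not_li_mul hM (lr_of_isIntegral hM (isIntegral_genChar (isGenChar_of_isIrr χ.2) _))
      (lr_of_isIntegral hM (hI 1).2) (not_li_of_li_sub hM (li_char_mul_sub hM (irr_isCharacter χ)
        (S.pElt S.mem) (by simp)) ?_)
      (fun h3 => not_li_one hM (h1 ▸ li_mul_left hM (lr_of_isIntegral hM (hI 1).1) h3)) h2
    have h4 := (charDegree_eq (irr_isCharacter χ)).symm
    rw [OneMemClass.coe_one, h4, li_natCast_iff hM]
    exact fun h5 => S.idx (h5.trans (ito_degree χ.2 V (fun a ha b hb => S.comm ha hb) h4))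
  · have e1 : ∀ h' : ↥(G ⊓ Cu v), ∑ χ : IrrCharacter X, ∑ h : ↥(G ⊓ Cu v),
        (χ : X → ℂ) (v * h) * conj (ψ h) * (conj ((χ : X → ℂ) (v * h')) * ψ h') =
        Nat.card ↥(G ⊓ Cu v) * c h' := fun h' => by
      have e2 : ∀ h : ↥(G ⊓ Cu v), ∑ χ : IrrCharacter X,
          (χ : X → ℂ) (v * h) * conj (ψ h) * (conj ((χ : X → ℂ) (v * h')) * ψ h') =
          Nat.card (centralizer ({v * h'} : Set X)) * ψ h' * (classInd h' h * conj (ψ h)) :=
        fun h => by
          rw [← S.classInd_eq, ← mul_assoc, mul_right_comm _ (ψ h'),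
            ← column_orthogonality_classInd, Finset.sum_mul, Finset.sum_mul]
          exact Finset.sum_congr rfl fun _ _ => by ring
      rw [Finset.sum_comm, Finset.sum_congr rfl fun h _ => e2 h, ← Finset.mul_sum,
        sum_classInd_mul h' (f := fun h => conj (ψ h))
          (fun a b => congrArg conj (isClassFunction_of_CS hψ a b)), S.card_centralizer, ← hc,
        ← (centralizer ({h'} : Set ↥(G ⊓ Cu v))).card_mul_index]
      push_cast; ring
    have e3 : ∑ χ : IrrCharacter X, (∑ h : ↥(G ⊓ Cu v), (χ : X → ℂ) (v * h) * conj (ψ h)) *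
        ∑ h : ↥(G ⊓ Cu v), conj ((χ : X → ℂ) (v * h)) * ψ h =
        Nat.card ↥(G ⊓ Cu v) * ∑ h, (c h : ℂ) := by
      rw [Finset.mul_sum, ← Finset.sum_congr rfl fun h _ => e1 h, Finset.sum_comm]
      exact Finset.sum_congr rfl fun χ _ => by rw [Finset.sum_mul_sum, Finset.sum_comm]
    simp only [classInner_def, map_mul, map_inv₀, map_natCast, map_sum, Complex.conj_conj]
    push_cast
    rw [eq_div_iff hH, ← mul_right_inj' hH, ← e3, Finset.sum_mul, Finset.mul_sum]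
    exact Finset.sum_congr rfl fun χ _ => by field_simp

end Setup

end CfsgLib.KGV
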