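import Mathlib
import Cfsg.Agent.Lib.KGV.Knorr
import Cfsg.Agent.Lib.Coprime.Glauberman

/-! Gauss sums give a square root of `h ↦ [W : C_W(h)]` for abelian acting groups. -/

set_option autoImplicit false

namespace CfsgLib.KGV

open Cfsg CfsgLib.Char CfsgLib.Block CfsgLib.Blk Subgroup CfsgLib.Coprime
open scoped ComplexConjugate IsMulCommutative

variable {p : ℕ} [hp : Fact p.Prime] {M : Ideal AlgInt}

theorem addChar_pow {F : Type*} [Field F] [CharP F p] (e : AddChar F ℂ) (t : F) : e t ^ p = 1 := by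
  rw [← AddChar.map_nsmul_eq_pow, nsmul_eq_mul, CharP.cast_eq_zero, zero_mul, AddChar.map_zero_eq_one]

theorem li_gaussSum (hM : IsPModular p M) {F : Type*} [Field F] [Fintype F] [CharP F p]
    {χ : MulChar F ℂ} (hχ : χ ≠ 1) (e : AddChar F ℂ) : MemLocalIdeal M (gaussSum χ e) := by
  rw [← sub_zero (gaussSum χ e), ← MulChar.sum_eq_zero_of_ne_one hχ, gaussSum,
    ← Finset.sum_sub_distrib]
  refine li_sum hM fun t _ => ?_
  rw [← mul_sub_one]
  refine li_mul_left hM (lr_of_isIntegral hM ?_)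
    (li_sub_one_of_pow hM (k := 1) (by rw [pow_one, addChar_pow]))
  rcases eq_or_ne t 0 with rfl | ht
  · rw [χ.map_zero]; exact isIntegral_zero
  · exact IsIntegral.of_pow (n := Fintype.card F - 1) (Nat.sub_pos_of_lt Fintype.one_lt_card)
      (by rw [← map_pow, FiniteField.pow_card_sub_one_eq_one t ht, map_one]; exact isIntegral_one)

theorem exists_gauss (hM : IsPModular p M) {H A : Type*} [Group H] [Group A] [Finite A]
    [IsCyclic A] (f : H →* A) {d : ℕ} (hd : d ≠ 0) (hA : Nat.card A ∣ p ^ d - 1) :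
    ∃ ψ ∈ CS p H, (∀ h, f h = 1 → ψ h * conj (ψ h) = 1) ∧
      ∀ h, f h ≠ 1 → ψ h * conj (ψ h) = (p ^ d : ℕ) ∧ MemLocalIdeal M (conj (ψ h)) := by
  classical
  haveI : Fintype (GaloisField p d) := Fintype.ofFinite _
  have hF : Fintype.card (GaloisField p d) = p ^ d := by
    rw [← Nat.card_eq_fintype_card, GaloisField.card p d hd]
  obtain ⟨χ, hχ⟩ := MulChar.exists_mulChar_orderOf (GaloisField p d) (hF ▸ hA)
    (Complex.isPrimitiveRoot_exp _ Nat.card_pos.ne')
  let ι : H →* MulChar (GaloisField p d) ℂ := (zpowers χ).subtype.comp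
    ((mulEquivOfCyclicCardEq (G := A) (by rw [Nat.card_zpowers, hχ])).toMonoidHom.comp f)
  have hι : ∀ h, ι h = 1 ↔ f h = 1 := fun h => by simp [ι]
  have he := AddChar.FiniteField.primitiveChar_to_Complex_isPrimitive (GaloisField p d)
  set e := AddChar.FiniteField.primitiveChar_to_Complex (GaloisField p d)
  have he1 : e ≠ 1 := fun h => he (a := 1) one_ne_zero (by rw [AddChar.mulShift_one, h])
  refine ⟨fun h => gaussSum (ι h) e, ?_, fun h hh => ?_, fun h hh => ?_⟩
  · have : (fun h => gaussSum (ι h) e) = ∑ t, e t • fun h => ι h t := funext fun h => by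
      simp [gaussSum, mul_comm]
    rw [this]
    refine Submodule.sum_mem _ fun t _ => smul_mem_CS (mem_cycInt_of_pow (addChar_pow e t)) ?_
    rcases eq_or_ne t 0 with rfl | ht
    · simp only [MulChar.map_zero]; exact zero_mem _
    · exact mem_CS (isGenChar_of_isIrr (isIrr_monoidHom
        { toFun := fun h => ι h t
          map_one' := by rw [map_one, MulChar.one_apply ht.isUnit]
          map_mul' := fun a b => by rw [map_mul, MulChar.mul_apply] }))
  · simp only [(hι h).2 hh, gaussSum_one_left he1]; simp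
  · have h1 := (hι h).not.2 hh
    have h2 : conj (gaussSum (ι h) e) = _ := star_gaussSum_eq (ι h) e
    simp only [h2]
    exact ⟨by rw [gaussSum_mul_gaussSum_eq_card h1 he, hF], li_gaussSum hM (inv_ne_one.2 h1) _⟩

theorem card_dvd_of_fpf {W : Type*} [Group W] [Finite W] (A : Subgroup (MulAut W))
    (h : ∀ a ∈ A, a ≠ 1 → ∀ w, a w = w → w = 1) : Nat.card A ∣ Nat.card W - 1 := by
  let S : SubMulAction A W :=
    ⟨{w | w ≠ 1}, fun a w hw h1 => hw ((map_eq_one_iff a.1 a.1.injective).1 h1)⟩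
  have h1 := Nat.card_congr (MulAction.selfEquivOrbitsQuotientProd (G := A) (X := S) fun w =>
    eq_bot_iff.2 fun a ha => by
      by_contra h1
      exact w.2 (h a a.2 (fun h2 => h1 (Subtype.ext h2)) w (congrArg Subtype.val ha)))
  have h2 : Nat.card S = Nat.card W - 1 := by
    classical
    haveI := Fintype.ofFinite W
    rw [Nat.card_eq_fintype_card (α := W), ← Fintype.card_subtype_eq (1 : W),
      ← Fintype.card_subtype_compl, ← Nat.card_eq_fintype_card]
    rfl
  rw [← h2, h1, Nat.card_prod]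
  exact dvd_mul_left _ _

variable {X : Type*} [Group X] [Finite X]

theorem exists_sqrt (hM : IsPModular p M) {H V : Subgroup X} (hH : ∀ a ∈ H, ∀ b ∈ H, a * b = b * a)
    (hV : ∀ a ∈ V, ∀ b ∈ V, a * b = b * a) (hVp : IsPGroup p V) (hc : (Nat.card H).Coprime p)
    (W : Subgroup X) : W ≤ V → H ≤ normalizer (W : Set X) → ∃ ψ ∈ CS p H,
      (∀ h : H, ψ h * conj (ψ h) * Nat.card ↥(W ⊓ Cu (h : X)) = Nat.card W) ∧
      ∀ h : H, ¬ W ≤ Cu (h : X) → MemLocalIdeal M (conj (ψ h)) := by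
  induction W using WellFoundedLT.induction with | ind W ih => ?_
  intro hWV hHW
  haveI : IsMulCommutative W := ⟨⟨fun a b => Subtype.ext (hV _ (hWV a.2) _ (hWV b.2))⟩⟩
  have hcop : ∀ {U : Subgroup X}, U ≤ W → ∀ h ∈ H, (Nat.card (zpowers h)).Coprime (Nat.card U) :=
    fun hU h hh => coprime_card_zpowers (coprime_card_of_isPGroup (hVp.to_le (hU.trans hWV)) hc) hh
  have hCu : ∀ h : X, centralizer (zpowers h : Set X) = Cu h := fun h => by
    rw [zpowers_eq_closure, centralizer_closure]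
  by_cases hex : ∃ h ∈ H, W ⊓ Cu h ≠ ⊥ ∧ ¬ W ≤ Cu h
  · obtain ⟨a, ha, h1, h2⟩ := hex
    have haW := (zpowers_le.2 ha).trans hHW
    obtain ⟨d1, d2⟩ := fitting_decomposition haW (hcop le_rfl a ha)
    rw [hCu] at d1 d2
    have hHa : H ≤ centralizer (zpowers a : Set X) := fun h hh => by
      rw [hCu]; exact mem_Cu.2 (hH a ha h hh)
    have n1 : H ≤ normalizer ((W ⊓ Cu a : Subgroup X) : Set X) :=
      (le_inf hHW (by rw [← hCu]; exact hHa.trans le_normalizer)).trans
        (inf_normalizer_le_normalizer_inf)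
    have n2 : H ≤ normalizer ((⁅W, zpowers a⁆ : Subgroup X) : Set X) :=
      le_normalizer_commutator hHW (hHa.trans (centralizer_le_normalizer _))
    have l2 := commutator_le_of_le_normalizer haW
    obtain ⟨ψ₁, m1, e1, i1⟩ := ih _ (lt_of_le_of_ne inf_le_left fun h => h2 (inf_eq_left.1 h))
      (inf_le_left.trans hWV) n1
    obtain ⟨ψ₂, m2, e2, i2⟩ := ih _ (lt_of_le_of_ne l2 fun h => h1 (by
      rwa [h, inf_eq_left.2 inf_le_left] at d1)) (l2.trans hWV) n2
    have hn : ∀ {A B : Subgroup X}, A ≤ W → B ≤ W → A ≤ normalizer (B : Set X) := fun hA hB =>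
      le_trans (fun a ha => mem_centralizer_iff.2 fun b hb => hV _ (hWV (hB hb)) _ (hWV (hA ha)))
        (centralizer_le_normalizer _)
    refine ⟨ψ₁ * ψ₂, mul_mem_CS m1 m2, fun h => ?_, fun h hh => ?_⟩
    · have k1 := sup_inf_centralizer ((zpowers_le.2 h.2).trans n1) ((zpowers_le.2 h.2).trans n2)
        (hn l2 inf_le_left) (hcop (inf_le_right.trans l2) h h.2) (Or.inl (isSolvable_zpowers _))
      rw [d2, hCu] at k1
      have k2 := card_sup_of_le_normalizer (hn l2 inf_le_left) d1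
      rw [d2] at k2
      rw [k1, card_sup_of_le_normalizer (hn (inf_le_left.trans l2) (inf_le_left.trans inf_le_left))
        (eq_bot_iff.2 (d1 ▸ inf_le_inf inf_le_left inf_le_left)), k2, Nat.cast_mul, Nat.cast_mul,
        ← e1 h, ← e2 h, Pi.mul_apply, map_mul]
      ring
    · rw [Pi.mul_apply, map_mul]
      by_cases h3 : W ⊓ Cu a ≤ Cu (h : X)
      · exact li_mul_left hM (lr_of_isIntegral hM (isIntegral_of_CS hp.out.ne_zero m1 h).2)
          (i2 h fun h4 => hh (d2 ▸ sup_le h3 h4))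
      · exact li_mul_right hM (i1 h h3)
          (lr_of_isIntegral hM (isIntegral_of_CS hp.out.ne_zero m2 h).2)
  rcases eq_or_ne W ⊥ with rfl | hW
  · exact ⟨1, mem_CS isGenChar_one, fun h => by simp, fun h hh => absurd bot_le hh⟩
  let f : H →* MulAut W := W.normalizerMonoidHom.comp (inclusion hHW)
  have hf : ∀ (h : H) (w : W), (f h w : X) = h * w * (h : X)⁻¹ := fun _ _ => rfl
  have hf1 : ∀ h, f h = 1 ↔ W ≤ Cu (h : X) := fun h =>
    ⟨fun h1 w hw => mem_Cu.2 (mul_inv_eq_iff_eq_mul.1 (by rw [← hf h ⟨w, hw⟩, h1]; rfl)),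
      fun h1 => MulEquiv.ext fun w => Subtype.ext
        ((hf h w).trans (mul_inv_eq_iff_eq_mul.2 (mem_Cu.1 (h1 w.2))))⟩
  have hbot : ∀ h : H, ¬ W ≤ Cu (h : X) → W ⊓ Cu (h : X) = ⊥ := fun h hh => by
    by_contra h1; exact hex ⟨h, h.2, h1, hh⟩
  have hfpf : ∀ a ∈ f.range, a ≠ 1 → ∀ w, a w = w → w = 1 := by
    rintro _ ⟨h, rfl⟩ h1 w hw
    exact Subtype.ext (mem_bot.1 (hbot h (fun h2 => h1 ((hf1 h).2 h2)) ▸ ⟨w.2, mem_Cu.2
      (mul_inv_eq_iff_eq_mul.1 ((hf h w).symm.trans (congrArg Subtype.val hw)))⟩))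
  obtain ⟨w, hw⟩ := ne_bot_iff_exists_ne_one.1 hW
  haveI := RealCl.isCyclic_of_fpf (Representation.ofMulDistribMulAction (MulAut W) W)
    ⟨Additive.ofMul w, hw⟩ f.range (by
      rintro _ ⟨a, rfl⟩ _ ⟨b, rfl⟩
      rw [← map_mul, ← map_mul]; exact congrArg f (Subtype.ext (hH _ a.2 _ b.2)))
    fun a ha h1 v hv => hfpf a ha h1 v.toMul hv
  obtain ⟨d, hd⟩ := IsPGroup.iff_card.1 (hVp.to_le hWV)
  obtain ⟨ψ, m, e1, e2⟩ := exists_gauss hM f.rangeRestrict (d := d)
    (fun h => hW (by rwa [h, pow_zero, card_eq_one] at hd)) (hd ▸ card_dvd_of_fpf _ hfpf)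
  have hr : ∀ h, f.rangeRestrict h = 1 ↔ W ≤ Cu (h : X) := fun h =>
    Subtype.ext_iff.trans (hf1 h)
  refine ⟨ψ, m, fun h => ?_, fun h hh => (e2 h ((hr h).not.2 hh)).2⟩
  by_cases hh : W ≤ Cu (h : X)
  · rw [e1 h ((hr h).2 hh), inf_eq_left.2 hh, one_mul]
  · rw [(e2 h ((hr h).not.2 hh)).1, hbot h hh, card_bot, hd, Nat.cast_one, mul_one]

theorem Setup.card_le_of_comm {V G : Subgroup X} {v : X} (S : Setup p V G v)
    (hab : ∀ a ∈ G ⊓ Cu v, ∀ b ∈ G ⊓ Cu v, a * b = b * a) :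
    Nat.card (ConjClasses X) ≤ Nat.card V := by
  obtain ⟨M, hM⟩ := exists_isPModular' hp.out
  haveI := S.normal
  obtain ⟨ψ, m, e, i⟩ := exists_sqrt hM hab (fun a ha b hb => S.comm ha hb)
    (fun w => ⟨1, Subtype.ext (by simpa using S.exp w w.2)⟩)
    (((hp.out.coprime_iff_not_dvd.2 S.idx).symm).coprime_dvd_left
      (S.compl.symm.index_eq_card ▸ card_dvd_of_le inf_le_left)) V le_rfl le_normalizer_of_normal
  refine S.knorr hM m ?_ (fun h hh => i h fun h1 => hh ?_) e fun _ => le_rfl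
  · have := e 1
    rw [(inf_eq_left (a := V)).2 fun x _ => mem_Cu.2 (by simp)] at this
    exact (mul_eq_right₀ natCard_ne_zero).1 this
  · have : (h : X) ∈ V ⊓ G :=
      ⟨S.self.le (mem_centralizer_iff.2 fun w hw => (mem_Cu.1 (h1 hw)).symm), h.2.1⟩
    rw [S.compl.disjoint.eq_bot] at this
    exact Subtype.ext this

end CfsgLib.KGV
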